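/-
Subgroups of index two from the sign of a coset action.
-/
import Cfsg.Agent.Transfer.Control

set_option autoImplicit false

open Subgroup MulAction Cfsg

namespace CL.Transfer

variable {G : Type*} [Group G] [Finite G]

/-- An element of even order acting semiregularly on `G ⧸ T` with an odd number of cycles lies
outside a subgroup of index two. -/
theorem exists_index_two_of_semiregular (T : Subgroup G) {y : G} (hy : Even (orderOf y)) {m : ℕ}
    (hm : Odd m) (hi : T.index = orderOf y * m)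
    (h : ∀ (i : ℕ) (g : G), g⁻¹ * y ^ i * g ∈ T → y ^ i = 1) :
    ∃ N : Subgroup G, N.index = 2 ∧ y ∉ N := by
  classical
  have := Fintype.ofFinite (G ⧸ T)
  let σ := toPermHom G (G ⧸ T)
  have hfix : ∀ (i : ℕ) (q : G ⧸ T), (σ y ^ i) q = q → y ^ i = 1 := fun i q hq => by
    obtain ⟨g, rfl⟩ := QuotientGroup.mk_surjective q
    rw [← map_pow] at hq
    have h1 : ((y ^ i * g : G) : G ⧸ T) = g := hq
    exact h i g (by simpa [mul_assoc] using QuotientGroup.eq.mp h1.symm)
  have h1 : (σ y).cycleType = Multiset.replicate (σ y).cycleType.card (orderOf y) := by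
    refine Multiset.eq_replicate.mpr ⟨rfl, fun n hn => Nat.dvd_antisymm
      ((Equiv.Perm.dvd_of_mem_cycleType hn).trans (orderOf_map_dvd σ y)) ?_⟩
    obtain ⟨c, τ, e, hd, hc, rfl⟩ := Equiv.Perm.mem_cycleType_iff.mp hn
    obtain ⟨x, hx, -⟩ := id hc
    refine orderOf_dvd_of_pow_eq_one (hfix _ x ?_)
    rw [e, hd.commute.mul_pow, ← hc.orderOf, pow_orderOf_eq_one, one_mul]
    exact Equiv.Perm.pow_apply_eq_self_of_apply_eq_self ((hd x).resolve_left hx) _
  have h2 : Fintype.card (Function.fixedPoints (σ y)) = 0 := by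
    rw [Fintype.card_eq_zero_iff]
    refine ⟨fun q => ?_⟩
    have := hfix 1 q (by rw [pow_one]; exact q.2)
    rw [pow_one] at this
    simp [this] at hy
  have h3 : Equiv.Perm.sign (σ y) = -1 := by
    rw [Equiv.Perm.sign_of_cycleType_eq_replicate (orderOf_pos y) h1,
      if_neg (Nat.not_odd_iff_even.mpr hy), h2, Nat.sub_zero, ← Nat.card_eq_fintype_card,
      ← index_eq_card, hi, Nat.mul_div_cancel_left _ (orderOf_pos y), hm.neg_one_pow]
  let s := Equiv.Perm.sign.comp σ
  have h4 : y ∉ s.ker := fun hk => by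
    have : Equiv.Perm.sign (σ y) = 1 := hk
    rw [h3] at this
    exact absurd this (by decide)
  refine ⟨s.ker, ?_, h4⟩
  have h5 : s.ker.index ∣ 2 := by
    rw [index_ker]
    simpa using card_subgroup_dvd_card s.range
  refine ((Nat.dvd_prime Nat.prime_two).mp h5).resolve_left fun h6 => h4 ?_
  rw [index_eq_one.mp h6]
  trivial

/-- If `T ≤ K = O²(K) ≤ H`, and a cyclic group `⟨y⟩ ≤ H` of order `2 ^ k = [H : T]₂` meets every
conjugate of `T` trivially, then `[K : T]` is odd. -/
theorem not_two_dvd_relIndex_of_cyclic {T K : Subgroup G} (hTK : T ≤ K) (hK : pResidual 2 K = ⊤)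
    {m : ℕ} (hm : Odd m) (k : ℕ) : ∀ (H : Subgroup G) (y : G), K ≤ H → y ∈ H → orderOf y = 2 ^ k →
      T.relIndex H = 2 ^ k * m → (∀ (i : ℕ) (g : G), g⁻¹ * y ^ i * g ∈ T → y ^ i = 1) →
      ¬ 2 ∣ T.relIndex K := by
  induction k with
  | zero =>
    intro H y hKH _ _ hi _ h2
    rw [← relIndex_mul_relIndex T K H hTK hKH, pow_zero, one_mul] at hi
    exact Nat.not_even_iff_odd.mpr hm (even_iff_two_dvd.mpr (hi ▸ h2.mul_right _))
  | succ k ih =>
    intro H y hKH hy hyo hi h
    have hyo' : orderOf (⟨y, hy⟩ : H) = 2 ^ (k + 1) := by rw [← hyo, orderOf_mk]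
    obtain ⟨N, hN, hyN⟩ := exists_index_two_of_semiregular (T.subgroupOf H) (y := ⟨y, hy⟩)
      (by rw [hyo']; exact (Nat.even_pow' k.succ_ne_zero).mpr even_two) hm (hyo' ▸ hi)
      fun i g hg => Subtype.ext (h i g hg)
    have hKN : K ≤ N.map H.subtype := by
      by_contra hc
      have h1 := index_comap N (inclusion hKH)
      have := N.normal_of_index_eq_two hN
      have h2 : (N.comap (inclusion hKH)).index ∣ 2 := by
        rw [h1, ← hN]; exact relIndex_dvd_index_of_normal _ _
      rcases (Nat.dvd_prime Nat.prime_two).mp h2 with h3 | h3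
      · exact hc fun x hx => ⟨⟨x, hKH hx⟩, (index_eq_one.mp h3).ge (mem_top (⟨x, hx⟩ : K)), rfl⟩
      · exact index_ne_two_of_pResidual_eq_top hK _ h3
    refine ih (N.map H.subtype) (y ^ 2) hKN ⟨⟨y, hy⟩ ^ 2, sq_mem_of_index_two hN _, rfl⟩ ?_ ?_
      fun i g hg => by rw [← pow_mul] at hg ⊢; exact h _ g hg
    · rw [orderOf_pow_of_dvd two_ne_zero (hyo ▸ dvd_pow_self 2 k.succ_ne_zero), hyo, pow_succ,
        Nat.mul_div_cancel _ two_pos]
    · have h1 := relIndex_mul_relIndex T _ H (hTK.trans hKN) (map_subtype_le N)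
      have h2 : (N.map H.subtype).relIndex H = 2 := by
        rw [relIndex, subgroupOf, comap_map_eq_self_of_injective H.subtype_injective, hN]
      rw [hi, h2, pow_succ, mul_right_comm] at h1
      exact Nat.eq_of_mul_eq_mul_right two_pos h1

end CL.Transfer
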