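/-
The focal subgroup via tame intersections, and Gruen's first theorem.
-/
import Cfsg.Agent.Transfer.Basic
import Cfsg.Agent.Grp.Alperin

set_option autoImplicit false

open Subgroup Cfsg
open scoped Pointwise commutatorElement

namespace CL.Transfer

variable {G : Type*} [Group G] [Finite G] {p : ℕ} [Fact p.Prime]

theorem inv_mul_conj_mem_of_tame_aux (P : Sylow p G) (F : Subgroup G) (m : ℕ)
    (h : ∀ Q : Sylow p G, Grp.IsTameInter p (P : Subgroup G) Q →
      m ≤ Nat.card ((P : Subgroup G) ⊓ Q : Subgroup G) →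
      ∀ x ∈ normalizer (((P : Subgroup G) ⊓ Q : Subgroup G) : Set G),
        ∀ a ∈ (P : Subgroup G) ⊓ Q, a⁻¹ * (x⁻¹ * a * x) ∈ F)
    (A : Set G) (g : G) (hA : A ⊆ P) (hAg : ∀ a ∈ A, g⁻¹ * a * g ∈ P) (hm : m ≤ A.ncard) :
    ∀ a ∈ A, a⁻¹ * (g⁻¹ * a * g) ∈ F := by
  refine Grp.alperin_induction P (fun A g => m ≤ A.ncard → ∀ a ∈ A, a⁻¹ * (g⁻¹ * a * g) ∈ F)
    (fun A _ a _ => by simp) (fun A x g h1 h2 hm a ha => ?_)
    (fun Q hQ A hA x hx hm a ha => h Q hQ (hm.trans (Set.ncard_le_ncard hA)) x hx a (hA ha))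
    A g hA hAg hm
  have h3 := h2 (by
    rwa [Set.ncard_image_of_injective _ fun a b h => by simpa using h]) _ ⟨a, ha, rfl⟩
  have := F.mul_mem (h1 hm a ha) h3
  simpa [mul_assoc] using this

/-- A subgroup containing `[P, N_G(P)]` and all `[P ∩ Q, x]`, for `P ∩ Q` tame and `x` a
`p`-element of `N_G(P ∩ Q)`, contains the focal subgroup. -/
theorem focal_le_of_tame (P : Sylow p G) (F : Subgroup G)
    (h1 : ∀ x ∈ normalizer ((P : Subgroup G) : Set G), ∀ a ∈ P, a⁻¹ * (x⁻¹ * a * x) ∈ F)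
    (h2 : ∀ Q : Sylow p G, Grp.IsTameInter p (P : Subgroup G) Q →
      ∀ x ∈ normalizer (((P : Subgroup G) ⊓ Q : Subgroup G) : Set G), (∃ k, orderOf x = p ^ k) →
        ∀ a ∈ (P : Subgroup G) ⊓ Q, a⁻¹ * (x⁻¹ * a * x) ∈ F) :
    commutator G ⊓ P ≤ F := by
  have key : ∀ n, ∀ Q : Sylow p G, Grp.IsTameInter p (P : Subgroup G) Q →
      Nat.card G - Nat.card ((P : Subgroup G) ⊓ Q : Subgroup G) = n →
      ∀ x ∈ normalizer (((P : Subgroup G) ⊓ Q : Subgroup G) : Set G),
        ∀ a ∈ (P : Subgroup G) ⊓ Q, a⁻¹ * (x⁻¹ * a * x) ∈ F := by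
    intro n
    induction n using Nat.strong_induction_on with
    | _ n ih =>
    intro Q hQ hn x hx
    set H : Subgroup G := (P : Subgroup G) ⊓ Q with hH
    by_cases hHP : H = P
    · rw [hHP] at hx ⊢
      exact h1 x hx
    have hlt : H < (P : Subgroup G) ⊓ normalizer (H : Set G) :=
      Grp.lt_inf_normalizer_of_isPGroup P.2 (lt_of_le_of_ne inf_le_left hHP)
    let K := closure {y : G | y ∈ normalizer (H : Set G) ∧ ∃ k, orderOf y = p ^ k}
    have hKN : K ≤ normalizer (H : Set G) := (closure_le _).mpr fun _ h => h.1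
    have hK : ∀ y ∈ K, ∀ a ∈ H, a⁻¹ * (y⁻¹ * a * y) ∈ F := by
      intro y hy
      induction hy using closure_induction with
      | mem y hy => exact h2 Q hQ y hy.1 hy.2
      | one => simp
      | mul y z hy hz ihy ihz =>
        intro a ha
        have := F.mul_mem (ihy a ha) (ihz _ ((mem_normalizer_iff''.mp (hKN hy) a).mp ha))
        simpa [mul_assoc] using this
      | inv y hy ihy =>
        intro a ha
        have := F.inv_mem (ihy _ ((mem_normalizer_iff.mp (hKN hy) a).mp ha))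
        simpa [mul_assoc] using this
    have hUK : (P : Subgroup G) ⊓ normalizer (H : Set G) ≤ K := fun y hy => by
      obtain ⟨k, hk⟩ := (IsPGroup.iff_orderOf.mp P.2) ⟨y, hy.1⟩
      exact subset_closure ⟨hy.2, k, (orderOf_coe (⟨y, hy.1⟩ : (P : Subgroup G))).trans hk⟩
    have hNK : normalizer (H : Set G) ≤ normalizer (K : Set G) := by
      intro y hy
      rw [← Grp.conj_smul_eq_self_iff]
      refine eq_of_le_of_card_ge ?_ (Grp.card_conj_smul _ _).ge
      rw [Grp.conj_smul_eq_map, MonoidHom.map_closure, closure_le]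
      rintro _ ⟨z, ⟨hz, k, hk⟩, rfl⟩
      exact subset_closure ⟨mul_mem (mul_mem hy hz) (inv_mem hy), k,
        ((MulAut.conj y).orderOf_eq z).trans hk⟩
    obtain ⟨k, hk, hkx⟩ := (hQ.1.of_le hUK hKN).frattini hNK hx
    intro a ha
    have hc := Grp.subgroup_card_lt_of_lt hlt
    have hc' : Nat.card ((P : Subgroup G) ⊓ normalizer (H : Set G) : Subgroup G) ≤ Nat.card G :=
      card_le_card_group _
    have h3 := inv_mul_conj_mem_of_tame_aux P F (Nat.card H + 1)
      (fun Q' hQ' hm => ih _ (by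
        have : Nat.card ((P : Subgroup G) ⊓ Q' : Subgroup G) ≤ Nat.card G := card_le_card_group _
        omega) Q' hQ' rfl)
      ((P : Subgroup G) ⊓ normalizer (H : Set G) : Subgroup G) (k * x) inf_le_left
      (fun b hb => ((mem_normalizer_iff''.mp hkx b).mp hb).1) hc _
      (hlt.le ((mem_normalizer_iff.mp (hKN hk) a).mp ha))
    have := F.mul_mem (hK _ (inv_mem hk) a ha) h3
    simpa [mul_assoc] using this
  rw [commutator_inf_eq_focalSubgroup, focalSubgroup_le_iff]
  intro x hx g hg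
  simpa using inv_mul_conj_mem_of_tame_aux P F 0 (fun Q hQ _ => key _ Q hQ rfl) {x} g⁻¹
    (Set.singleton_subset_iff.mpr hx) (by rintro _ rfl; rwa [inv_inv]) (Nat.zero_le _) x rfl

omit [Finite G] [Fact p.Prime] in
theorem inv_mul_conj_mem_commutator {A B : Subgroup G} {a x : G} (ha : a ∈ A) (hx : x ∈ B) :
    a⁻¹ * (x⁻¹ * a * x) ∈ ⁅A, B⁆ := by
  simpa [commutatorElement_def, mul_assoc] using commutator_mem_commutator (inv_mem ha) (inv_mem hx)

/-- **Gruen's first theorem**. -/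
theorem gruen_first (P : Sylow p G) : (P : Subgroup G) ⊓ commutator G =
    ((P : Subgroup G) ⊓ ⁅normalizer ((P : Subgroup G) : Set G),
      normalizer ((P : Subgroup G) : Set G)⁆) ⊔
    ⨆ z : G, (P : Subgroup G) ⊓ MulAut.conj z • ⁅(P : Subgroup G), (P : Subgroup G)⁆ := by
  refine le_antisymm ((inf_comm _ _).le.trans (focal_le_of_tame P _ (fun x hx a ha => ?_)
    fun Q _ x hx ⟨k, hk⟩ a ha => ?_)) (sup_le ?_ (iSup_le fun z => ?_))
  · exact mem_sup_left ⟨(P : Subgroup G).mul_mem ((P : Subgroup G).inv_mem ha) ((mem_normalizer_iff''.mp hx a).mp ha),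
      inv_mul_conj_mem_commutator (le_normalizer ha) hx⟩
  · have h1 : IsPGroup p (zpowers x) := IsPGroup.of_card ((Nat.card_zpowers x).trans hk)
    have h2 := IsPGroup.to_sup_of_normal_left' (P.2.to_inf_left (K := Q)) h1 (zpowers_le.mpr hx)
    obtain ⟨z, hz⟩ := Grp.exists_conj_le_sylow P h2
    rw [Grp.conj_smul_le_iff] at hz
    refine mem_sup_right (mem_iSup_of_mem z⁻¹
      ⟨(P : Subgroup G).mul_mem ((P : Subgroup G).inv_mem ha.1) ((mem_normalizer_iff''.mp hx a).mp ha).1, ?_⟩)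
    refine (Grp.mem_conj_smul_iff _ _ _).mpr ?_
    simpa [mul_assoc] using inv_mul_conj_mem_commutator (hz a (mem_sup_left ha))
      (hz x (mem_sup_right (mem_zpowers x)))
  · exact inf_le_inf_left _ (commutator_mono le_top le_top)
  · refine inf_le_inf_left _ ((Grp.conj_smul_le_iff _ _ _).mpr fun x hx => ?_)
    exact Normal.conj_mem inferInstance _ (commutator_mono le_top le_top hx) _

end CL.Transfer
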